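import Cfsg.Agent.H881.Bs.Conj

/-!
# S5733: counting of conjugates of split elements `(t, s t)` on `L × L`
-/

set_option autoImplicit false

namespace Cfsg.Agent.H881.Bs

open Cfsg.Agent.H847.Bs

section plus

variable {F V L : Type*} [Field F] [AddCommGroup V] [Module F V] [Field L] [Algebra F L]

/-- the element `(t, u)` of `GL(L × L)`, transported to `V` -/
def mu2 (e : V ≃ₗ[F] (L × L)) (t u : Lˣ) : V ≃ₗ[F] V := e ≪≫ₗ ((mul F t).prodCongr (mul F u)) ≪≫ₗ e.symm

theorem mu2_apply (e : V ≃ₗ[F] (L × L)) (t u : Lˣ) (v : V) : mu2 e t u v = e.symm (t * (e v).1, u * (e v).2) := rfl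

theorem e_mu2 (e : V ≃ₗ[F] (L × L)) (t u : Lˣ) (v : V) : e (mu2 e t u v) = (t * (e v).1, u * (e v).2) := by
  rw [mu2_apply, e.apply_symm_apply]

theorem mu2_injective (e : V ≃ₗ[F] (L × L)) {s t u v : Lˣ} (h : mu2 e s u = mu2 e t v) : s = t ∧ u = v := by
  have h1 : mu2 e s u (e.symm (1, 1)) = mu2 e t v (e.symm (1, 1)) := by rw [h]
  have h2 := congrArg e h1
  rw [e_mu2, e_mu2, e.apply_symm_apply] at h2
  have h3 := Prod.mk.inj h2
  refine ⟨Units.ext ?_, Units.ext ?_⟩
  · simpa using h3.1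
  · simpa using h3.2

/-- the first summand -/
def sA (e : V ≃ₗ[F] (L × L)) : Submodule F V := (LinearMap.ker (LinearMap.snd F L L)).comap (e : V →ₗ[F] L × L)

/-- the second summand -/
def sB (e : V ≃ₗ[F] (L × L)) : Submodule F V := (LinearMap.ker (LinearMap.fst F L L)).comap (e : V →ₗ[F] L × L)

theorem mem_sA (e : V ≃ₗ[F] (L × L)) {v : V} : v ∈ sA e ↔ (e v).2 = 0 := by
  rw [sA, Submodule.mem_comap, LinearMap.mem_ker]
  rfl

theorem mem_sB (e : V ≃ₗ[F] (L × L)) {v : V} : v ∈ sB e ↔ (e v).1 = 0 := by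
  rw [sB, Submodule.mem_comap, LinearMap.mem_ker]
  rfl

theorem isCompl_sAB (e : V ≃ₗ[F] (L × L)) : IsCompl (sA e) (sB e) := by
  constructor
  · rw [Submodule.disjoint_def]
    intro v h1 h2
    rw [mem_sA] at h1
    rw [mem_sB] at h2
    exact (LinearEquiv.map_eq_zero_iff e).1 (Prod.ext h2 h1)
  · rw [codisjoint_iff, eq_top_iff]
    intro v _
    rw [Submodule.mem_sup]
    refine ⟨e.symm ((e v).1, 0), ?_, e.symm (0, (e v).2), ?_, ?_⟩
    · rw [mem_sA, e.apply_symm_apply]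
    · rw [mem_sB, e.apply_symm_apply]
    · rw [← map_add]
      apply e.injective
      rw [e.apply_symm_apply]
      simp

/-- `A ≃ L` -/
noncomputable def eA (e : V ≃ₗ[F] (L × L)) : sA e ≃ₗ[F] L :=
  { toFun := fun v => (e v).1
    map_add' := fun v w => by rw [Submodule.coe_add, map_add]; rfl
    map_smul' := fun a v => by rw [Submodule.coe_smul, map_smul]; rfl
    invFun := fun x => ⟨e.symm (x, 0), by rw [mem_sA, e.apply_symm_apply]⟩
    left_inv := fun v => by
      apply Subtype.ext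
      apply e.injective
      rw [e.apply_symm_apply]
      exact Prod.ext rfl ((mem_sA e).1 v.2).symm
    right_inv := fun x => by
      change (e (e.symm (x, 0))).1 = x
      rw [e.apply_symm_apply] }

/-- `A' ≃ L` -/
noncomputable def eB (e : V ≃ₗ[F] (L × L)) : sB e ≃ₗ[F] L :=
  { toFun := fun v => (e v).2
    map_add' := fun v w => by rw [Submodule.coe_add, map_add]; rfl
    map_smul' := fun a v => by rw [Submodule.coe_smul, map_smul]; rfl
    invFun := fun x => ⟨e.symm (0, x), by rw [mem_sB, e.apply_symm_apply]⟩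
    left_inv := fun v => by
      apply Subtype.ext
      apply e.injective
      rw [e.apply_symm_apply]
      exact Prod.ext ((mem_sB e).1 v.2).symm rfl
    right_inv := fun x => by
      change (e (e.symm (0, x))).2 = x
      rw [e.apply_symm_apply] }

theorem irr_sA (e : V ≃ₗ[F] (L × L)) {t u : Lˣ} (h : Gen F (t : L)) : Irr (mu2 e t u) (sA e) where
  inv := by
    intro v hv
    rw [mem_sA] at hv ⊢
    rw [e_mu2, hv, mul_zero]
  ne_bot := by
    intro h0
    have h1 : e.symm (1, 0) ∈ sA e := by rw [mem_sA, e.apply_symm_apply]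
    rw [h0, Submodule.mem_bot, LinearEquiv.map_eq_zero_iff] at h1
    exact one_ne_zero (congrArg Prod.fst h1)
  min := by
    intro Y hYA hY
    have h1 := (irr_mul h).min ((Y.map (e : V →ₗ[F] L × L)).map (LinearMap.fst F L L)) le_top (by
      rintro x ⟨_, ⟨y, hy, rfl⟩, rfl⟩
      refine ⟨_, ⟨mu2 e t u y, hY y hy, rfl⟩, ?_⟩
      change (e (mu2 e t u y)).1 = t * (e y).1
      rw [e_mu2])
    rcases h1 with h1 | h1
    · left
      rw [eq_bot_iff]
      intro v hv
      have h2 : (e v).1 ∈ ((Y.map (e : V →ₗ[F] L × L)).map (LinearMap.fst F L L)) := ⟨_, ⟨v, hv, rfl⟩, rfl⟩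
      rw [h1, Submodule.mem_bot] at h2
      rw [Submodule.mem_bot]
      exact (LinearEquiv.map_eq_zero_iff e).1 (Prod.ext h2 ((mem_sA e).1 (hYA hv)))
    · right
      refine le_antisymm hYA fun v hv => ?_
      have h2 : (e v).1 ∈ ((Y.map (e : V →ₗ[F] L × L)).map (LinearMap.fst F L L)) := by
        rw [h1]; exact Submodule.mem_top
      obtain ⟨_, ⟨y, hy, rfl⟩, hye⟩ := h2
      have h3 : e y = e v := Prod.ext hye (((mem_sA e).1 (hYA hy)).trans ((mem_sA e).1 hv).symm)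
      rwa [← e.injective h3]

/-- exchange of the two summands -/
def sw (e : V ≃ₗ[F] (L × L)) : V ≃ₗ[F] (L × L) := e ≪≫ₗ LinearEquiv.prodComm F L L

theorem sA_sw (e : V ≃ₗ[F] (L × L)) : sA (sw e) = sB e := by
  ext v
  rw [mem_sA, mem_sB]
  rfl

theorem sB_sw (e : V ≃ₗ[F] (L × L)) : sB (sw e) = sA e := by
  ext v
  rw [mem_sA, mem_sB]
  rfl

theorem mu2_sw (e : V ≃ₗ[F] (L × L)) (t u : Lˣ) : mu2 (sw e) t u = mu2 e u t := by
  refine LinearEquiv.ext fun v => ?_
  rw [mu2_apply, mu2_apply]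
  rfl

theorem irr_sB (e : V ≃ₗ[F] (L × L)) {t u : Lˣ} (h : Gen F (u : L)) : Irr (mu2 e t u) (sB e) := by
  have h1 := irr_sA (sw e) (t := u) (u := t) h
  rwa [sA_sw, mu2_sw] at h1

theorem finrank_sA (e : V ≃ₗ[F] (L × L)) : Module.finrank F (sA e) = Module.finrank F L := (eA e).finrank_eq

theorem finrank_sB (e : V ≃ₗ[F] (L × L)) : Module.finrank F (sB e) = Module.finrank F L := (eB e).finrank_eq

theorem aeval_mu2 (e : V ≃ₗ[F] (L × L)) (t u : Lˣ) (p : Polynomial F) (v : V) :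
    Polynomial.aeval (mu2 e t u : V →ₗ[F] V) p v =
      e.symm (Polynomial.aeval (t : L) p * (e v).1, Polynomial.aeval (u : L) p * (e v).2) := by
  have h1 := aeval_conj e (mu2 e t u : V →ₗ[F] V) (((mul F t).prodCongr (mul F u) : (L × L) ≃ₗ[F] (L × L)) :
    (L × L) →ₗ[F] (L × L)) (fun v => e_mu2 e t u v) p v
  rw [← e.symm_apply_apply (Polynomial.aeval (mu2 e t u : V →ₗ[F] V) p v), h1]
  congr 1
  have h2 : ∀ (x : L), Polynomial.aeval (((mul F t).prodCongr (mul F u) : (L × L) ≃ₗ[F] (L × L)) :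
      (L × L) →ₗ[F] (L × L)) p (x, 0) = (Polynomial.aeval (t : L) p * x, 0) := by
    intro x
    rw [← aeval_mul t p x]
    exact (aeval_lin (LinearMap.inl F L L) (mul F t : L →ₗ[F] L) (((mul F t).prodCongr (mul F u) :
      (L × L) ≃ₗ[F] (L × L)) : (L × L) →ₗ[F] (L × L)) (fun y => Prod.ext rfl (mul_zero (u : L)).symm) p x).symm
  have h3 : ∀ (x : L), Polynomial.aeval (((mul F t).prodCongr (mul F u) : (L × L) ≃ₗ[F] (L × L)) :
      (L × L) →ₗ[F] (L × L)) p (0, x) = (0, Polynomial.aeval (u : L) p * x) := by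
    intro x
    rw [← aeval_mul u p x]
    exact (aeval_lin (LinearMap.inr F L L) (mul F u : L →ₗ[F] L) (((mul F t).prodCongr (mul F u) :
      (L × L) ≃ₗ[F] (L × L)) : (L × L) →ₗ[F] (L × L)) (fun y => Prod.ext (mul_zero (t : L)).symm rfl) p x).symm
  have h4 : e v = ((e v).1, 0) + (0, (e v).2) := by
    rw [Prod.mk_add_mk, add_zero, zero_add]
  rw [h4, map_add, h2, h3, Prod.mk_add_mk, add_zero, zero_add, Prod.mk_add_mk, add_zero, zero_add]

/-- two elements with different minimal polynomials -/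
theorem aeval_ne_zero {t u : L} [FiniteDimensional F L] (h : minpoly F t ≠ minpoly F u) :
    Polynomial.aeval u (minpoly F t) ≠ 0 := by
  intro h0
  have h1 : minpoly F u ∣ minpoly F t := minpoly.dvd _ _ h0
  have hiu : IsIntegral F u := Algebra.IsIntegral.isIntegral _
  have hit : IsIntegral F t := Algebra.IsIntegral.isIntegral _
  have h2 : Irreducible (minpoly F t) := minpoly.irreducible hit
  have h3 : Irreducible (minpoly F u) := minpoly.irreducible hiu
  have h4 : Associated (minpoly F u) (minpoly F t) := (h3.dvd_irreducible_iff_associated h2).1 h1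
  exact h (Polynomial.eq_of_monic_of_associated (minpoly.monic hit) (minpoly.monic hiu) h4.symm)

theorem mem_sA_iff [FiniteDimensional F L] (e : V ≃ₗ[F] (L × L)) {t u : Lˣ}
    (h : minpoly F (t : L) ≠ minpoly F (u : L)) {v : V} :
    v ∈ sA e ↔ Polynomial.aeval (mu2 e t u : V →ₗ[F] V) (minpoly F (t : L)) v = 0 := by
  rw [mem_sA, aeval_mu2, minpoly.aeval, zero_mul, LinearEquiv.map_eq_zero_iff, Prod.mk_eq_zero]
  simp [aeval_ne_zero h]

theorem mem_sB_iff [FiniteDimensional F L] (e : V ≃ₗ[F] (L × L)) {t u : Lˣ}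
    (h : minpoly F (t : L) ≠ minpoly F (u : L)) {v : V} :
    v ∈ sB e ↔ Polynomial.aeval (mu2 e t u : V →ₗ[F] V) (minpoly F (u : L)) v = 0 := by
  rw [mem_sB, aeval_mu2, minpoly.aeval, zero_mul, LinearEquiv.map_eq_zero_iff, Prod.mk_eq_zero]
  simp [aeval_ne_zero (Ne.symm h)]

/-- `A` and `A'` are not isomorphic -/
theorem not_iso [FiniteDimensional F L] (e : V ≃ₗ[F] (L × L)) {t u : Lˣ}
    (h : minpoly F (t : L) ≠ minpoly F (u : L)) :
    ¬ ∃ φ : sA e ≃ₗ[F] sB e, ∀ a : sA e, ∀ ha : mu2 e t u a ∈ sA e,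
      ((φ ⟨mu2 e t u a, ha⟩ : sB e) : V) = mu2 e t u (φ a) := by
  rintro ⟨φ, hφ⟩
  -- `ψ = eB ∘ φ ∘ eA⁻¹` satisfies `ψ (t x) = u ψ(x)`
  set ψ : L ≃ₗ[F] L := (eA e).symm ≪≫ₗ φ ≪≫ₗ eB e with hψ
  have h1 : ∀ x, ψ (mul F t x) = mul F u (ψ x) := by
    intro x
    have h2 : mu2 e t u ((eA e).symm x : sA e) = ((eA e).symm (mul F t x) : sA e) := by
      apply e.injective
      rw [e_mu2]
      change (t * (e (e.symm (x, 0))).1, u * (e (e.symm (x, 0))).2) = e (e.symm (t * x, 0))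
      rw [e.apply_symm_apply, e.apply_symm_apply, mul_zero]
    have h3 := hφ ((eA e).symm x) (by rw [h2]; exact ((eA e).symm (mul F t x)).2)
    have h4 : (⟨mu2 e t u ((eA e).symm x : sA e), by rw [h2]; exact ((eA e).symm (mul F t x)).2⟩ : sA e) =
        (eA e).symm (mul F t x) := Subtype.ext h2
    rw [h4] at h3
    change (e ((φ ((eA e).symm (mul F t x)) : sB e) : V)).2 = u * (e ((φ ((eA e).symm x) : sB e) : V)).2
    rw [h3, e_mu2]
  have h2 := aeval_conj ψ (mul F t : L →ₗ[F] L) (mul F u : L →ₗ[F] L) h1 (minpoly F (t : L)) (ψ.symm 1)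
  rw [aeval_mul, minpoly.aeval, zero_mul, map_zero, ψ.apply_symm_apply, aeval_mul, mul_one] at h2
  exact aeval_ne_zero h h2.symm

/-- the centraliser preserves `A` and acts on it as a multiplication -/
theorem comm_sA [FiniteDimensional F L] (e : V ≃ₗ[F] (L × L)) {t u : Lˣ} (ht : Gen F (t : L))
    (h : minpoly F (t : L) ≠ minpoly F (u : L)) {g : V ≃ₗ[F] V} (hg : g * mu2 e t u = mu2 e t u * g) :
    (∀ v ∈ sB e, g v ∈ sB e) ∧ ∃ c : L, ∀ v ∈ sA e, e (g v) = (c * (e v).1, 0) := by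
  have hg' : ∀ v, g (mu2 e t u v) = mu2 e t u (g v) := fun v => congrArg (fun f : V ≃ₗ[F] V => f v) hg
  have hA : ∀ v ∈ sA e, g v ∈ sA e := by
    intro v hv
    rw [mem_sA_iff e h] at hv ⊢
    rw [← aeval_conj g (mu2 e t u : V →ₗ[F] V) (mu2 e t u : V →ₗ[F] V) hg', hv, map_zero]
  have hB : ∀ v ∈ sB e, g v ∈ sB e := by
    intro v hv
    rw [mem_sB_iff e h] at hv ⊢
    rw [← aeval_conj g (mu2 e t u : V →ₗ[F] V) (mu2 e t u : V →ₗ[F] V) hg', hv, map_zero]
  refine ⟨hB, ?_⟩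
  -- the restriction to `A`
  set g' : L →ₗ[F] L := (LinearMap.fst F L L) ∘ₗ (e : V →ₗ[F] L × L) ∘ₗ (g : V →ₗ[F] V) ∘ₗ
    (e.symm : L × L →ₗ[F] V) ∘ₗ (LinearMap.inl F L L) with hg''
  have h1 : ∀ x, g' (t * x) = t * g' x := by
    intro x
    change (e (g (e.symm (t * x, 0)))).1 = t * (e (g (e.symm (x, 0)))).1
    have h2 : e.symm (t * x, (0 : L)) = mu2 e t u (e.symm (x, 0)) := by
      rw [mu2_apply, e.apply_symm_apply, mul_zero]
    rw [h2, hg', e_mu2]
  have h2 := eq_mul_of_comm ht h1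
  refine ⟨g' 1, fun v hv => Prod.ext ?_ ((mem_sA e).1 (hA v hv))⟩
  rw [← h2]
  change _ = (e (g (e.symm ((e v).1, 0)))).1
  have h3 : ((e v).1, (0 : L)) = e v := Prod.ext rfl ((mem_sA e).1 hv).symm
  rw [h3, e.symm_apply_apply]

/-- **Counting split elements.** -/
theorem plus_count [Finite V] [Finite L] [FiniteDimensional F L] (e : V ≃ₗ[F] (L × L)) (G : Subgroup (V ≃ₗ[F] V))
    (hG : ∀ g ∈ G, (∀ v ∈ sA e, g v = v) → (∀ v ∈ sB e, g v ∈ sB e) → g = 1) (s : Lˣ → Lˣ)
    (E : Set Lˣ) (hE : ∀ t ∈ E, Gen F (t : L) ∧ minpoly F (t : L) ≠ minpoly F (s t : L)) :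
    Nat.card G * Nat.card E ≤ 2 * Module.finrank F L * Nat.card Lˣ *
      Nat.card {z : V ≃ₗ[F] V // ∃ g ∈ G, ∃ t ∈ E, z = g * mu2 e t (s t) * g⁻¹} := by
  classical
  have hfin : Finite (V ≃ₗ[F] V) := Finite.of_injective (fun g : V ≃ₗ[F] V => (g : V → V)) DFunLike.coe_injective
  have hinj : Function.Injective (fun t => mu2 e t (s t)) := fun t t' h => (mu2_injective e h).1
  have h1 := conj_count G ((fun t => mu2 e t (s t)) '' E) (2 * Module.finrank F L) (Nat.card Lˣ) ?_ ?_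
  · have h2 : Nat.card ((fun t => mu2 e t (s t)) '' E) = Nat.card E := Nat.card_image_of_injective hinj E
    rw [h2] at h1
    refine h1.trans (Nat.mul_le_mul_left _ (le_of_eq (Nat.card_congr (Equiv.subtypeEquivRight fun z => ?_))))
    constructor
    · rintro ⟨g, hg, _, ⟨t, ht, rfl⟩, rfl⟩
      exact ⟨g, hg, t, ht, rfl⟩
    · rintro ⟨g, hg, t, ht, rfl⟩
      exact ⟨g, hg, _, ⟨t, ht, rfl⟩, rfl⟩
  · rintro _ ⟨t, ht, rfl⟩
    have hit : IsIntegral F (t : L) := Algebra.IsIntegral.isIntegral _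
    have his : IsIntegral F (s t : L) := Algebra.IsIntegral.isIntegral _
    have h0 : minpoly F (t : L) * minpoly F (s t : L) ≠ 0 := mul_ne_zero (minpoly.ne_zero hit) (minpoly.ne_zero his)
    have h2 : Nat.card {t' // t' ∈ (fun t => mu2 e t (s t)) '' E ∧ ∃ g ∈ G, g * mu2 e t (s t) * g⁻¹ = t'} ≤
        Nat.card ((minpoly F (t : L) * minpoly F (s t : L)).rootSet L) := by
      refine Nat.card_le_card_of_injective (fun z => ⟨((z.2.1.choose : Lˣ) : L), ?_⟩) ?_
      · rw [Polynomial.mem_rootSet]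
        refine ⟨h0, ?_⟩
        obtain ⟨g, hg, h3⟩ := z.2.2
        have h4 : g * mu2 e t (s t) * g⁻¹ = mu2 e z.2.1.choose (s z.2.1.choose) := h3.trans z.2.1.choose_spec.2.symm
        have h5 : ∀ v, g (mu2 e t (s t) v) = mu2 e z.2.1.choose (s z.2.1.choose) (g v) := by
          intro v
          have h6 : g * mu2 e t (s t) = mu2 e z.2.1.choose (s z.2.1.choose) * g := by rw [← h4]; group
          exact congrArg (fun f : V ≃ₗ[F] V => f v) h6
        have h6 := aeval_conj g (mu2 e t (s t) : V →ₗ[F] V) (mu2 e z.2.1.choose (s z.2.1.choose) : V →ₗ[F] V) h5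
          (minpoly F (t : L) * minpoly F (s t : L)) (g.symm (e.symm (1, 0)))
        rw [aeval_mu2, map_mul, map_mul, minpoly.aeval, minpoly.aeval, zero_mul, mul_zero, zero_mul, zero_mul,
          g.apply_symm_apply, aeval_mu2, e.apply_symm_apply, mul_one, mul_zero] at h6
        have h7 : e.symm ((0 : L), (0 : L)) = 0 := by
          rw [LinearEquiv.map_eq_zero_iff]; rfl
        rw [h7, map_zero] at h6
        have h8 := (LinearEquiv.map_eq_zero_iff e.symm).1 h6.symm
        exact congrArg Prod.fst h8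
      · intro z z' h
        have h3 : ((z.2.1.choose : Lˣ) : L) = ((z'.2.1.choose : Lˣ) : L) := congrArg Subtype.val h
        have h4 := Units.ext h3
        refine Subtype.ext ?_
        rw [← z.2.1.choose_spec.2, ← z'.2.1.choose_spec.2, h4]
    refine h2.trans ((card_rootSet_le _).trans ?_)
    rw [Polynomial.natDegree_mul (minpoly.ne_zero hit) (minpoly.ne_zero his), two_mul]
    exact add_le_add (minpoly.natDegree_le (t : L)) (minpoly.natDegree_le (s t : L))
  · rintro _ ⟨t, ht, rfl⟩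
    -- the multiplier on `A`
    have key : ∀ g : {g // g ∈ G ∧ g * mu2 e t (s t) = mu2 e t (s t) * g},
        ∃ c : Lˣ, ∀ v ∈ sA e, e (g.1 v) = (c * (e v).1, 0) := by
      intro g
      obtain ⟨-, c, hc⟩ := comm_sA e (hE t ht).1 (hE t ht).2 g.2.2
      have hc0 : c ≠ 0 := by
        rintro rfl
        have h2 := hc (e.symm (1, 0)) (by rw [mem_sA, e.apply_symm_apply])
        rw [zero_mul] at h2
        have h3 : g.1 (e.symm (1, 0)) = 0 := (LinearEquiv.map_eq_zero_iff e).1 h2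
        rw [LinearEquiv.map_eq_zero_iff, LinearEquiv.map_eq_zero_iff] at h3
        exact one_ne_zero (congrArg Prod.fst h3)
      exact ⟨Units.mk0 c hc0, hc⟩
    refine Nat.card_le_card_of_injective (fun g => (key g).choose) ?_
    intro g g' h
    have h2 : (key g).choose = (key g').choose := h
    have h3 := (key g).choose_spec
    have h4 := (key g').choose_spec
    rw [← h2] at h4
    have h5 : (g'.1)⁻¹ * g.1 = 1 := by
      refine hG _ (G.mul_mem (G.inv_mem g'.2.1) g.2.1) (fun v hv => ?_) (fun v hv => ?_)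
      · change (g'.1).symm (g.1 v) = v
        rw [LinearEquiv.symm_apply_eq]
        exact e.injective ((h3 v hv).trans (h4 v hv).symm)
      · have h6 : (g'.1)⁻¹ * mu2 e t (s t) = mu2 e t (s t) * (g'.1)⁻¹ := by
          have h7 := g'.2.2
          calc (g'.1)⁻¹ * mu2 e t (s t) = (g'.1)⁻¹ * (mu2 e t (s t) * g'.1) * (g'.1)⁻¹ := by group
            _ = (g'.1)⁻¹ * (g'.1 * mu2 e t (s t)) * (g'.1)⁻¹ := by rw [h7]
            _ = mu2 e t (s t) * (g'.1)⁻¹ := by group
        exact (comm_sA e (hE t ht).1 (hE t ht).2 h6).1 _ ((comm_sA e (hE t ht).1 (hE t ht).2 g.2.2).1 v hv)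
    exact Subtype.ext (inv_mul_eq_one.1 h5).symm

end plus

end Cfsg.Agent.H881.Bs
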