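import Cfsg.Agent.H881.Bs.HermMinus
import Cfsg.Agent.H881.Bs.ConjPlus

/-!
# S5733 (BS06): split type isometries of hermitian spaces of even dimension
-/

set_option autoImplicit false
set_option linter.unusedSectionVars false

namespace Cfsg.Agent.H881.Bs

open Cfsg.Agent.H847.Bs Module

section conj

variable {F V : Type*} [Field F] [AddCommGroup V] [Module F V] {Φ : Frm F V}

theorem conj_apply (g x : V ≃ₗ[F] V) (v : V) : (g * x * g⁻¹) (g v) = g (x v) := by
  change g (x (g.symm (g v))) = _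
  rw [g.symm_apply_apply]

theorem irr_conj_map {x g : V ≃ₗ[F] V} {A : Submodule F V} (h : Irr x A) :
    Irr (g * x * g⁻¹) (A.map (g : V →ₗ[F] V)) where
  inv := by
    rintro _ ⟨v, hv, rfl⟩
    exact ⟨x v, h.inv v hv, (conj_apply g x v).symm⟩
  ne_bot := fun h0 => h.ne_bot ((Submodule.map_eq_bot_iff (e := g) (p := A)).1 h0)
  min := by
    intro Y hYA hY
    have h1 := h.min (Y.comap (g : V →ₗ[F] V)) (by
      intro v hv
      obtain ⟨w, hw, hwv⟩ := hYA hv
      rwa [← g.injective hwv]) (by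
      intro v hv
      rw [Submodule.mem_comap] at hv ⊢
      have h2 := hY _ hv
      change (g * x * g⁻¹) (g v) ∈ Y at h2
      rw [conj_apply] at h2
      exact h2)
    rcases h1 with h1 | h1
    · left
      rw [eq_bot_iff]
      intro v hv
      obtain ⟨w, hw, rfl⟩ := hYA hv
      have h2 : w ∈ Y.comap (g : V →ₗ[F] V) := hv
      rw [h1, Submodule.mem_bot] at h2
      rw [h2, map_zero]
      exact Submodule.zero_mem _
    · right
      refine le_antisymm hYA ?_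
      rintro _ ⟨w, hw, rfl⟩
      rw [← h1] at hw
      exact hw

/-- the split type is invariant under isometries -/
theorem Bp_conj {x g : V ≃ₗ[F] V} (hx : x ∈ Φ.Bp) (hg : g ∈ Φ.Iso) : g * x * g⁻¹ ∈ Φ.Bp := by
  obtain ⟨hxI, A, A', hc, hA, hA', hi, hi', hf, hn⟩ := hx
  refine ⟨Φ.Iso.mul_mem (Φ.Iso.mul_mem hg hxI) (Φ.Iso.inv_mem hg), A.map (g : V →ₗ[F] V), A'.map (g : V →ₗ[F] V),
    ?_, ?_, ?_, irr_conj_map hi, irr_conj_map hi', ?_, ?_⟩
  · exact (OrderIso.isCompl_iff (Submodule.orderIsoMapComap g)).1 hc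
  · refine ⟨?_, ?_⟩
    · rintro _ ⟨a, ha, rfl⟩ _ ⟨b, hb, rfl⟩
      exact (hg.1 a b).trans (hA.1 a ha b hb)
    · rintro _ ⟨a, ha, rfl⟩
      exact (hg.2 a).trans (hA.2 a ha)
  · refine ⟨?_, ?_⟩
    · rintro _ ⟨a, ha, rfl⟩ _ ⟨b, hb, rfl⟩
      exact (hg.1 a b).trans (hA'.1 a ha b hb)
    · rintro _ ⟨a, ha, rfl⟩
      exact (hg.2 a).trans (hA'.2 a ha)
  · rw [LinearEquiv.finrank_map_eq, LinearEquiv.finrank_map_eq, hf]
  · rintro ⟨φ, hφ⟩
    apply hn
    refine ⟨(g.submoduleMap A) ≪≫ₗ φ ≪≫ₗ (g.submoduleMap A').symm, fun a ha => ?_⟩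
    have h1 : (g * x * g⁻¹) ((g.submoduleMap A a : A.map (g : V →ₗ[F] V)) : V) = g (x a) := by
      rw [LinearEquiv.submoduleMap_apply]
      exact conj_apply g x a
    have h2 : (g * x * g⁻¹) ((g.submoduleMap A a : A.map (g : V →ₗ[F] V)) : V) ∈ A.map (g : V →ₗ[F] V) := by
      rw [h1]
      exact ⟨x a, ha, rfl⟩
    have h3 := hφ (g.submoduleMap A a) h2
    have h4 : (⟨(g * x * g⁻¹) ((g.submoduleMap A a : A.map (g : V →ₗ[F] V)) : V), h2⟩ : A.map (g : V →ₗ[F] V)) =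
        g.submoduleMap A ⟨x a, ha⟩ := by
      apply Subtype.ext
      exact h1.trans (LinearEquiv.submoduleMap_apply g A ⟨x a, ha⟩).symm
    rw [h4] at h3
    apply g.injective
    have h5 : ∀ b : A'.map (g : V →ₗ[F] V), g (((g.submoduleMap A').symm b : A') : V) = b := by
      intro b
      have := congrArg Subtype.val ((g.submoduleMap A').apply_symm_apply b)
      rwa [LinearEquiv.submoduleMap_apply] at this
    change g (((g.submoduleMap A').symm (φ (g.submoduleMap A ⟨x a, ha⟩)) : A') : V) =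
      g (x (((g.submoduleMap A').symm (φ (g.submoduleMap A a)) : A') : V))
    rw [h5, h3, ← h5 (φ (g.submoduleMap A a)), conj_apply]

end conj

section form

variable {F : Type*} [Field F] [Finite F] {r : ℕ} {L : Type*} [Field L] [Algebra F L] [Finite L]

theorem exists_root_r (hF : Nat.card F = r ^ 2) (hpos : 1 ≤ finrank F L) (z : L) :
    (z ^ (r ^ (2 * finrank F L - 1))) ^ r = z := by
  have := Fintype.ofFinite L
  rw [← pow_mul, ← pow_succ, Nat.sub_add_cancel (by omega), ← card_ext hF, Nat.card_eq_fintype_card,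
    FiniteField.pow_card]

variable (L) in
/-- the split hermitian form on `L × L` -/
noncomputable def plusFrm (hF : Nat.card F = r ^ 2) : Frm F (L × L) where
  B u v := Algebra.trace F L (u.1 * v.2 ^ r) + Algebra.trace F L (v.1 * u.2 ^ r) ^ r
  q _ := 0
  s a := a ^ r
  add_left x y z := by
    rw [Prod.fst_add, Prod.snd_add, add_mul, map_add, add_pow_r (F := F) hF, mul_add, map_add, add_pow_r (F := F) hF]
    ring
  add_right x y z := by
    rw [Prod.fst_add, Prod.snd_add, add_mul, map_add, add_pow_r (F := F) hF, mul_add, map_add, add_pow_r (F := F) hF]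
    ring
  smul_left a x y := by
    rw [Prod.smul_fst, Prod.smul_snd, smul_mul_assoc, map_smul, smul_eq_mul]
    have h1 : (a • x.2) ^ r = (a ^ r) • x.2 ^ r := smul_pow a x.2 r
    rw [h1, mul_smul_comm, map_smul, smul_eq_mul, mul_pow, pow_r_r hF, mul_add]
  smul_right a x y := by
    rw [Prod.smul_fst, Prod.smul_snd, smul_mul_assoc, map_smul, smul_eq_mul]
    have h1 : (a • y.2) ^ r = (a ^ r) • y.2 ^ r := smul_pow a y.2 r
    rw [h1, mul_smul_comm, map_smul, smul_eq_mul, mul_pow, mul_add]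
  refl x y h := by
    have hr := two_le_r hF
    have h1 : Algebra.trace F L (y.1 * x.2 ^ r) + Algebra.trace F L (x.1 * y.2 ^ r) ^ r =
        (Algebra.trace F L (x.1 * y.2 ^ r) + Algebra.trace F L (y.1 * x.2 ^ r) ^ r) ^ r := by
      rw [add_pow_r (F := F) hF, pow_r_r hF]
      ring
    rw [h1, h, zero_pow (by omega)]
  q_add _ _ _ := (add_zero 0).symm

theorem isHerm_plus (hF : Nat.card F = r ^ 2) (hpos : 1 ≤ finrank F L) : IsHerm r (plusFrm L hF) where
  nd x h := by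
    have hr := two_le_r hF
    have h1 : x.1 = 0 := by
      by_contra hx
      obtain ⟨y, hy⟩ := exists_trace_ne (F := F) hx
      apply hy
      have h2 := h (0, y ^ (r ^ (2 * finrank F L - 1)))
      change Algebra.trace F L (x.1 * (y ^ (r ^ (2 * finrank F L - 1))) ^ r) +
        Algebra.trace F L (0 * x.2 ^ r) ^ r = 0 at h2
      rwa [exists_root_r hF hpos, zero_mul, map_zero, zero_pow (by omega), add_zero] at h2
    have h2 : x.2 = 0 := by
      by_contra hx
      obtain ⟨y, hy⟩ := exists_trace_ne (F := F) (pow_ne_zero r hx)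
      apply hy
      have h2 := h (y, 0)
      change Algebra.trace F L (x.1 * 0 ^ r) + Algebra.trace F L (y * x.2 ^ r) ^ r = 0 at h2
      rw [zero_pow (by omega), mul_zero, map_zero, zero_add] at h2
      rw [mul_comm]
      exact eq_zero_of_pow_eq_zero h2
    exact Prod.ext h1 h2
  card := hF
  s _ := rfl
  q _ := rfl
  symm x y := by
    change Algebra.trace F L (y.1 * x.2 ^ r) + Algebra.trace F L (x.1 * y.2 ^ r) ^ r =
        (Algebra.trace F L (x.1 * y.2 ^ r) + Algebra.trace F L (y.1 * x.2 ^ r) ^ r) ^ r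
    rw [add_pow_r (F := F) hF, pow_r_r hF]
    ring

variable (F) in
/-- the action on the second summand -/
noncomputable def sAct (r : ℕ) (t : Lˣ) : Lˣ := (t⁻¹) ^ (r ^ (2 * finrank F L - 1))

theorem sAct_pow (hF : Nat.card F = r ^ 2) (hpos : 1 ≤ finrank F L) (t : Lˣ) : ((sAct F r t : Lˣ) : L) ^ r = (t : L)⁻¹ := by
  unfold sAct
  rw [Units.val_pow_eq_pow_val, exists_root_r hF hpos, Units.val_inv_eq_inv_val]

variable {V : Type*} [AddCommGroup V] [Module F V] {Φ : Frm F V}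

theorem mu2_mem (hF : Nat.card F = r ^ 2) (hpos : 1 ≤ finrank F L) (hΦ : IsHerm r Φ) (e : V ≃ₗ[F] (L × L))
    (he : ∀ x y, (plusFrm L hF).B (e x) (e y) = Φ.B x y) (t : Lˣ) : mu2 e t (sAct F r t) ∈ Φ.Iso := by
  refine ⟨fun x y => ?_, fun x => by rw [hΦ.q, hΦ.q]⟩
  rw [← he, ← he, e_mu2, e_mu2]
  change Algebra.trace F L ((t * (e x).1) * ((sAct F r t : Lˣ) * (e y).2) ^ r) +
    Algebra.trace F L ((t * (e y).1) * ((sAct F r t : Lˣ) * (e x).2) ^ r) ^ r =
    Algebra.trace F L ((e x).1 * (e y).2 ^ r) + Algebra.trace F L ((e y).1 * (e x).2 ^ r) ^ r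
  have h0 : (t : L) ≠ 0 := t.ne_zero
  have h1 : ∀ a b : L, (t * a) * ((sAct F r t : Lˣ) * b) ^ r = a * b ^ r := by
    intro a b
    rw [mul_pow, sAct_pow hF hpos]
    field_simp
  rw [h1, h1]

theorem ti_sA (hF : Nat.card F = r ^ 2) (hΦ : IsHerm r Φ) (e : V ≃ₗ[F] (L × L))
    (he : ∀ x y, (plusFrm L hF).B (e x) (e y) = Φ.B x y) : Φ.TI (sA e) := by
  have hr := two_le_r hF
  refine ⟨fun x hx y hy => ?_, fun x _ => hΦ.q x⟩
  rw [mem_sA] at hx hy
  rw [← he]
  change Algebra.trace F L ((e x).1 * (e y).2 ^ r) + Algebra.trace F L ((e y).1 * (e x).2 ^ r) ^ r = 0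
  rw [hx, hy, zero_pow (by omega), mul_zero, mul_zero, map_zero, zero_pow (by omega), add_zero]

theorem ti_sB (hF : Nat.card F = r ^ 2) (hΦ : IsHerm r Φ) (e : V ≃ₗ[F] (L × L))
    (he : ∀ x y, (plusFrm L hF).B (e x) (e y) = Φ.B x y) : Φ.TI (sB e) := by
  have hr := two_le_r hF
  refine ⟨fun x hx y hy => ?_, fun x _ => hΦ.q x⟩
  rw [mem_sB] at hx hy
  rw [← he]
  change Algebra.trace F L ((e x).1 * (e y).2 ^ r) + Algebra.trace F L ((e y).1 * (e x).2 ^ r) ^ r = 0
  rw [hx, hy, zero_mul, zero_mul, map_zero, zero_pow (by omega), add_zero]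

theorem fix_eq_one (hF : Nat.card F = r ^ 2) (hΦ : IsHerm r Φ) (e : V ≃ₗ[F] (L × L))
    (he : ∀ x y, (plusFrm L hF).B (e x) (e y) = Φ.B x y) {g : V ≃ₗ[F] V} (hg : g ∈ Φ.Iso)
    (hA : ∀ v ∈ sA e, g v = v) (hB : ∀ v ∈ sB e, g v ∈ sB e) : g = 1 := by
  have hdec : ∀ v : V, ∃ a ∈ sA e, ∃ b ∈ sB e, a + b = v := by
    intro v
    have h1 : v ∈ sA e ⊔ sB e := by rw [(isCompl_sAB e).sup_eq_top]; exact Submodule.mem_top
    exact Submodule.mem_sup.1 h1
  have hB1 : ∀ v ∈ sB e, g v = v := by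
    intro v hv
    have h1 : ∀ y, Φ.B (g v - v) y = 0 := by
      intro y
      apply Φ.refl
      obtain ⟨a, ha, b, hb, rfl⟩ := hdec y
      have h2 : g v - v ∈ sB e := (sB e).sub_mem (hB v hv) hv
      have h3 : Φ.B a (g v - v) = 0 := by
        have h4 : Φ.B a (g v) = Φ.B a v := by
          conv_lhs => rw [← hA a ha]
          exact hg.1 a v
        have h5 : Φ.B a (g v) = Φ.B a (g v - v) + Φ.B a v := by rw [← Φ.add_right, sub_add_cancel]
        rw [h4] at h5
        exact (left_eq_add.1 (by rw [add_comm] at h5; exact h5))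
      rw [Φ.add_left, h3, (ti_sB hF hΦ e he).1 b hb _ h2, add_zero]
    exact sub_eq_zero.1 (hΦ.nd _ h1)
  refine LinearEquiv.ext fun v => ?_
  obtain ⟨a, ha, b, hb, rfl⟩ := hdec v
  rw [map_add, hA a ha, hB1 b hb]
  rfl

/-- the bad units -/
theorem bad_pow (hF : Nat.card F = r ^ 2) (hpos : 1 ≤ finrank F L) {t : Lˣ} (ht : Gen F (t : L))
    (h : minpoly F (t : L) = minpoly F (sAct F r t : L)) : t ^ (r ^ finrank F L + 1) = 1 := by
  have hLf := Fintype.ofFinite L
  have hr := two_le_r hF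
  obtain ⟨i, hi⟩ := eq_pow_of_minpoly_eq h
  -- `t ^ (r ^ (2 i + 1)) = t⁻¹`
  have h0 : (t : L) ≠ 0 := t.ne_zero
  have h1 : (t : L) ^ (r ^ (2 * i + 1)) = (t : L)⁻¹ := by
    rw [← sAct_pow hF hpos t, hi, hF, ← pow_mul, ← pow_mul, ← pow_succ]
  have h2 : (t : L) ^ (Nat.card F ^ (2 * i + 1)) = t := by
    rw [hF, ← pow_mul, two_mul, pow_add, pow_mul, h1, inv_pow, h1, inv_inv]
  -- hence the same for all elements of `L`
  have h3 : ∀ x : L, x ^ (Nat.card F ^ (2 * i + 1)) = x := by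
    intro x
    have hadd : ∀ n : ℕ, ∀ a b : L, (a + b) ^ (Nat.card F ^ n) = a ^ (Nat.card F ^ n) + b ^ (Nat.card F ^ n) := by
      intro n a b
      rw [hF, ← pow_mul]
      exact add_pow_rn (F := F) hF _ a b
    refine ht.mem (fun x => x ^ (Nat.card F ^ (2 * i + 1)) = x) (fun a => ?_) h2 (fun x y hx hy => ?_)
      (fun x y hx hy => ?_) x
    · have hFf := Fintype.ofFinite F
      rw [← map_pow, Nat.card_eq_fintype_card, FiniteField.pow_card_pow]
    · rw [hadd, hx, hy]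
    · rw [mul_pow, hx, hy]
  -- `finrank ∣ 2 i + 1`
  have hq : 2 ≤ Nat.card F := Finite.one_lt_card
  have hper : ∀ k : ℕ, ∀ x : L, x ^ (Nat.card F ^ (finrank F L * k)) = x := by
    intro k x
    rw [pow_mul, ← Module.natCard_eq_pow_finrank, Nat.card_eq_fintype_card]
    exact FiniteField.pow_card_pow k x
  have hdvd : finrank F L ∣ 2 * i + 1 := by
    rw [Nat.dvd_iff_mod_eq_zero]
    by_contra hne
    have h4 : ∀ x : L, x ^ (Nat.card F ^ ((2 * i + 1) % finrank F L)) = x := by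
      intro x
      have h5 := h3 x
      rw [← Nat.div_add_mod (2 * i + 1) (finrank F L), pow_add, pow_mul, hper] at h5
      exact h5
    have h5 : Nat.card L ≤ Nat.card F ^ ((2 * i + 1) % finrank F L) := by
      refine le_trans (le_of_eq ?_) (card_pow_eq_le (L := L) (Nat.one_lt_pow hne hq))
      exact Nat.card_congr
        { toFun := fun x => ⟨x, h4 x⟩
          invFun := fun x => x.1
          left_inv := fun _ => rfl
          right_inv := fun _ => rfl }
    rw [Module.natCard_eq_pow_finrank (K := F) (V := L)] at h5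
    have h6 := (Nat.pow_le_pow_iff_right hq).1 h5
    have h7 := Nat.mod_lt (2 * i + 1) hpos
    omega
  obtain ⟨k, hk⟩ := hdvd
  have hko : Odd k := by
    have h4 : Odd (finrank F L * k) := by rw [← hk]; exact odd_two_mul_add_one i
    exact (Nat.odd_mul.1 h4).2
  obtain ⟨l, rfl⟩ := hko
  have h4 : (t : L) ^ (r ^ finrank F L) = (t : L)⁻¹ := by
    rw [← h1, hk]
    have h5 : finrank F L * (2 * l + 1) = 2 * finrank F L * l + finrank F L := by ring
    rw [h5, pow_add, pow_mul r, ← card_ext hF, pow_mul, Nat.card_eq_fintype_card, FiniteField.pow_card_pow]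
  apply Units.ext
  rw [Units.val_pow_eq_pow_val, Units.val_one, pow_succ, h4, inv_mul_cancel₀ h0]

/-- the number of good units -/
theorem card_good (hF : Nat.card F = r ^ 2) (hpos : 1 ≤ finrank F L) : Nat.card Lˣ ≤
    Nat.card {t : Lˣ // Gen F (t : L) ∧ minpoly F (t : L) ≠ minpoly F (sAct F r t : L)} +
      (2 * r ^ finrank F L + (r ^ finrank F L + 1)) := by
  classical
  have hr := two_le_r hF
  have h1 : Nat.card Lˣ ≤ Nat.card {t : Lˣ // Gen F (t : L) ∧ minpoly F (t : L) ≠ minpoly F (sAct F r t : L)} +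
      (Nat.card {t : Lˣ // ¬ Gen F (t : L)} + Nat.card {t : Lˣ // t ^ (r ^ finrank F L + 1) = 1}) := by
    have := Fintype.ofFinite Lˣ
    rw [Nat.card_eq_fintype_card, Nat.card_eq_fintype_card, Nat.card_eq_fintype_card, Nat.card_eq_fintype_card,
      Fintype.card_subtype, Fintype.card_subtype, Fintype.card_subtype, ← Finset.card_univ]
    refine (Finset.card_le_card (t := Finset.filter (fun t : Lˣ => Gen F (t : L) ∧
      minpoly F (t : L) ≠ minpoly F (sAct F r t : L)) Finset.univ ∪ (Finset.filter (fun t : Lˣ => ¬ Gen F (t : L))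
      Finset.univ ∪ Finset.filter (fun t : Lˣ => t ^ (r ^ finrank F L + 1) = 1) Finset.univ)) ?_).trans
      ((Finset.card_union_le _ _).trans (Nat.add_le_add_left (Finset.card_union_le _ _) _))
    intro t _
    simp only [Finset.mem_union, Finset.mem_filter, Finset.mem_univ, true_and]
    by_cases h1 : Gen F (t : L)
    · by_cases h2 : minpoly F (t : L) = minpoly F (sAct F r t : L)
      · exact Or.inr (Or.inr (bad_pow hF hpos h1 h2))
      · exact Or.inl ⟨h1, h2⟩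
    · exact Or.inr (Or.inl h1)
  have h2 : Nat.card {t : Lˣ // ¬ Gen F (t : L)} ≤ 2 * r ^ finrank F L := by
    refine card_unit_not_gen_le.trans (card_not_gen_half.trans (Nat.mul_le_mul_left _ ?_))
    rw [hF, ← pow_mul]
    exact Nat.pow_le_pow_right (by omega) (Nat.mul_div_le _ _)
  have h3 := card_T (L := L) hF
  omega

end form

theorem num_plus {r e : ℕ} (hr : 2 ≤ r) (he : 1 ≤ e) :
    2 * (r : ℝ) ^ e + ((r : ℝ) ^ e + 1) ≤ 16 * (4 / 5 : ℝ) ^ (2 * e) * ((r : ℝ) ^ (2 * e) - 1) := by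
  have hr' : (2 : ℝ) ≤ r := by exact_mod_cast hr
  have h1 : (1 : ℝ) ≤ ((16 / 25 : ℝ) * r) ^ e := one_le_pow₀ (by nlinarith)
  have h2 : (4 / 5 : ℝ) ^ (2 * e) * (r : ℝ) ^ (2 * e) = ((16 / 25 : ℝ) * r) ^ e * (r : ℝ) ^ e := by
    rw [← mul_pow, pow_mul, ← mul_pow]
    congr 1
    ring
  have h3 : (1 : ℝ) ≤ (r : ℝ) ^ e := one_le_pow₀ (by linarith)
  have h4 : (4 : ℝ) ≤ (r : ℝ) ^ (2 * e) := by
    have h5 : (4 : ℝ) ≤ (r : ℝ) ^ 2 := by nlinarith
    calc (4 : ℝ) ≤ (r : ℝ) ^ 2 := h5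
      _ ≤ (r : ℝ) ^ (2 * e) := pow_le_pow_right₀ (by linarith) (by omega)
  have h5 : (0 : ℝ) < (4 / 5 : ℝ) ^ (2 * e) := by positivity
  have h6 : (r : ℝ) ^ e ≤ (4 / 5 : ℝ) ^ (2 * e) * (r : ℝ) ^ (2 * e) := by
    rw [h2]
    nlinarith
  have h7 : (4 / 5 : ℝ) ^ (2 * e) * (r : ℝ) ^ (2 * e) ≤ (4 / 3) * ((4 / 5 : ℝ) ^ (2 * e) * ((r : ℝ) ^ (2 * e) - 1)) := by
    nlinarith
  nlinarith

section main

variable {F V : Type*} [Field F] [AddCommGroup V] [Module F V] [Finite F] [FiniteDimensional F V] {r d : ℕ} {Φ : Frm F V}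

/-- **BS06 (2).** -/
theorem herm_plus (hΦ : IsHerm r Φ) (hd : finrank F V = d) (hev : Even d) (h2 : 2 ≤ d) :
    ar d / d * (Nat.card Φ.Iso : ℝ) ≤ Nat.card Φ.Bp := by
  obtain ⟨e, rfl⟩ := hev
  have hVfin : Finite V := Module.finite_of_finite F
  have hGfin := finite_equiv' F V
  obtain ⟨p, hp⟩ := CharP.exists F
  have hpf : Fact p.Prime := ⟨CharP.char_is_prime F p⟩
  have he1 : 1 ≤ e := by omega
  have he0 : NeZero e := ⟨by omega⟩
  set L := FiniteField.Extension F p e with hLdef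
  have hL : finrank F L = e := FiniteField.finrank_extension F p e
  have hF := hΦ.card
  have hr := two_le_r hF
  have hpos : 1 ≤ finrank F L := by omega
  obtain ⟨f, hf⟩ := exists_isom hΦ (isHerm_plus (L := L) hF hpos) (by rw [hd, Module.finrank_prod, hL])
  have h1 := plus_count f Φ.Iso (fun g hg hA hB => fix_eq_one hF hΦ f hf hg hA hB) (sAct F r)
    {t : Lˣ | Gen F (t : L) ∧ minpoly F (t : L) ≠ minpoly F (sAct F r t : L)} (fun t ht => ht)
  have h3 : Nat.card {z : V ≃ₗ[F] V // ∃ g ∈ Φ.Iso, ∃ t ∈ {t : Lˣ | Gen F (t : L) ∧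
      minpoly F (t : L) ≠ minpoly F (sAct F r t : L)}, z = g * mu2 f t (sAct F r t) * g⁻¹} ≤ Nat.card Φ.Bp := by
    refine Nat.card_le_card_of_injective (fun z => (⟨z.1, ?_⟩ : Φ.Bp)) fun a b h => Subtype.ext (Subtype.mk.inj h)
    obtain ⟨g, hg, t, ht, hz⟩ := z.2
    rw [hz]
    refine Bp_conj ⟨mu2_mem hF hpos hΦ f hf t, sA f, sB f, isCompl_sAB f, ti_sA hF hΦ f hf, ti_sB hF hΦ f hf,
      irr_sA f ht.1, irr_sB f ?_, by rw [finrank_sA, finrank_sB], not_iso f ht.2⟩ hg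
    -- `s t` generates
    have h0 : (t : L) ≠ 0 := t.ne_zero
    have h4 : ((sAct F r t : Lˣ) : L) ^ r = (t : L)⁻¹ := sAct_pow hF hpos t
    have hLf := Fintype.ofFinite L
    unfold Gen
    rw [eq_top_iff, ← ht.1]
    rw [Algebra.adjoin_le_iff, Set.singleton_subset_iff, SetLike.mem_coe]
    have h5 : (t : L) = (((sAct F r t : Lˣ) : L) ^ r) ^ (Nat.card L - 2) := by
      have h6 : 2 ≤ Nat.card L := Finite.one_lt_card
      have h7 : (((sAct F r t : Lˣ) : L) ^ r) ^ (Nat.card L - 2) * (((sAct F r t : Lˣ) : L) ^ r) = 1 := by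
        rw [← pow_succ]
        have h8 : Nat.card L - 2 + 1 = Nat.card L - 1 := by omega
        rw [h8, h4, inv_pow, Nat.card_eq_fintype_card, FiniteField.pow_card_sub_one_eq_one _ h0, inv_one]
      rw [h4] at h7 ⊢
      exact (eq_mul_inv_iff_mul_eq₀ (inv_ne_zero h0)).2 h7 |>.symm ▸ by rw [inv_inv, one_mul]
    rw [h5]
    exact Subalgebra.pow_mem _ (Subalgebra.pow_mem _ (Algebra.self_mem_adjoin_singleton F _) _) _
  have h4 := card_good (L := L) hF hpos
  have h5 : Nat.card Lˣ = r ^ (2 * e) - 1 := by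
    rw [Nat.card_units, card_ext hF, hL]
  have hEeq : Nat.card {t : Lˣ | Gen F (t : L) ∧ minpoly F (t : L) ≠ minpoly F (sAct F r t : L)} =
    Nat.card {t : Lˣ // Gen F (t : L) ∧ minpoly F (t : L) ≠ minpoly F (sAct F r t : L)} := rfl
  rw [hEeq] at h1
  set E := Nat.card {t : Lˣ // Gen F (t : L) ∧ minpoly F (t : L) ≠ minpoly F (sAct F r t : L)} with hE
  rw [hL] at h1 h4
  have h6 : (1 : ℕ) ≤ r ^ (2 * e) := Nat.one_le_pow _ _ (by omega)
  have h7 : ((Nat.card Lˣ : ℕ) : ℝ) = (r : ℝ) ^ (2 * e) - 1 := by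
    rw [h5, Nat.cast_sub h6]
    push_cast
    ring
  have h4' : (Nat.card Lˣ : ℝ) ≤ E + (2 * (r : ℝ) ^ e + ((r : ℝ) ^ e + 1)) := by exact_mod_cast h4
  have h8 := num_plus hr he1
  have h9 : ar (e + e) * (Nat.card Lˣ : ℝ) ≤ E := by
    unfold ar
    rw [← two_mul, h7]
    rw [h7] at h4'
    nlinarith
  have h1' : (Nat.card Φ.Iso : ℝ) * E ≤ 2 * e * (Nat.card Lˣ : ℝ) * Nat.card Φ.Bp := by
    have := h1.trans (Nat.mul_le_mul_left _ h3)
    exact_mod_cast this
  have h10 : (0 : ℝ) < Nat.card Lˣ := by exact_mod_cast Nat.card_pos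
  have h11 : (0 : ℝ) ≤ Nat.card Φ.Iso := Nat.cast_nonneg _
  have hd0 : (0 : ℝ) < ((e + e : ℕ) : ℝ) := by exact_mod_cast (by omega : 0 < e + e)
  rw [div_mul_eq_mul_div, div_le_iff₀ hd0]
  have h12 : ar (e + e) * (Nat.card Φ.Iso : ℝ) * (Nat.card Lˣ : ℝ) ≤
      (Nat.card Φ.Bp * ((e + e : ℕ) : ℝ)) * (Nat.card Lˣ : ℝ) := by
    calc ar (e + e) * (Nat.card Φ.Iso : ℝ) * (Nat.card Lˣ : ℝ) =
          (Nat.card Φ.Iso : ℝ) * (ar (e + e) * (Nat.card Lˣ : ℝ)) := by ring
      _ ≤ (Nat.card Φ.Iso : ℝ) * E := mul_le_mul_of_nonneg_left h9 h11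
      _ ≤ 2 * e * (Nat.card Lˣ : ℝ) * Nat.card Φ.Bp := h1'
      _ = (Nat.card Φ.Bp * ((e + e : ℕ) : ℝ)) * (Nat.card Lˣ : ℝ) := by push_cast; ring
  exact le_of_mul_le_mul_right h12 h10

end main

end Cfsg.Agent.H881.Bs
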